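import Mathlib
import Cfsg.Prelude.Def_Local
import Cfsg.Agent.H451.PLength
import Cfsg.Agent.H552.Defs
import Cfsg.Agent.OddOrderCharacters.PF9.SectionModule
import Cfsg.Agent.PLocal.SectionFrattini
import Cfsg.Agent.Lib.PSolvable
import Cfsg.Agent.Lib.FrattiniPGroup
set_option linter.all false

/-!
# `2`-length and the lower `2`-series (part A2 of helper552's plan for S4258)

* `pLengthLE_of_odd` : if `T e G` has odd order then `G` has `2`-length at most `e`;
* `odd_of_EAt` : Hall-Higman reduction: Theorem E for the smaller `2`-soluble groups gives that `T e G` has odd order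
  when the elements of `2`-power order have order dividing `2 ^ e`.
-/

set_option autoImplicit false

universe u

namespace Cfsg.Agent.H979.TwoLenA

open Cfsg Cfsg.Agent.H552 Cfsg.Agent.H451.PLength Cfsg.Agent.OddOrderLocal
open scoped commutatorElement

theorem odd_card_of_odd_orderOf {Q : Type*} [Group Q] [Finite Q] (h : ∀ x : Q, Odd (orderOf x)) :
    Odd (Nat.card Q) := by
  by_contra hc
  rw [Nat.not_odd_iff_even, even_iff_two_dvd] at hc
  obtain ⟨x, hx⟩ := exists_prime_orderOf_dvd_card' 2 hc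
  have := h x
  rw [hx] at this
  exact absurd this (by decide)

/-- **Part (a).** -/
theorem pLengthLE_of_odd (e : ℕ) : ∀ (G : Type u) [Group G] [Finite G],
    Odd (Nat.card (T e (⊤ : Subgroup G))) → PLengthLE 2 e G := by
  induction e with
  | zero =>
    intro G _ _ h
    rw [pLengthLE_zero_iff]
    rw [T_zero, Subgroup.card_top] at h
    exact Nat.coprime_two_right.2 h
  | succ e ih =>
    intro G _ _ h
    have hN : (T 1 (⊤ : Subgroup G)).Normal := T_normal 1 inferInstance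
    have h1 : PLengthLE 2 e (T 1 (⊤ : Subgroup G)) := by
      apply ih
      have h2 : (T e (⊤ : Subgroup (T 1 (⊤ : Subgroup G)))).map (T 1 (⊤ : Subgroup G)).subtype =
          T (e + 1) ⊤ := by rw [T_subtype, ← T_add]
      rw [← h2] at h
      rwa [Nat.card_congr (Subgroup.equivMapOfInjective _ _
        (Subgroup.subtype_injective (T 1 (⊤ : Subgroup G)))).toEquiv]
    have h2 : PLengthLE 2 1 (G ⧸ T 1 (⊤ : Subgroup G)) := by
      rw [PLengthSub.pLengthLE_one_iff]
      have hBn : (twoGen (⊤ : Subgroup G)).Normal := twoGen_normal inferInstance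
      have hB : ((twoGen (⊤ : Subgroup G)).map (QuotientGroup.mk' (T 1 (⊤ : Subgroup G)))).Normal :=
        hBn.map _ (QuotientGroup.mk'_surjective _)
      refine ⟨⊥, (twoGen (⊤ : Subgroup G)).map (QuotientGroup.mk' (T 1 (⊤ : Subgroup G))), inferInstance, hB,
        bot_le, ?_, ?_, ?_⟩
      · rw [Subgroup.card_bot]; exact Nat.coprime_one_left 2
      · rw [Subgroup.relIndex_bot_left]
        refine (IsPGroup.iff_card).1 (isPGroup_of_isTwo ?_)
        rintro _ ⟨g, hg, rfl⟩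
        obtain ⟨m, n, hm, hn, hx⟩ := exists_odd_mul_two g
        have h3 : g ^ m ∈ T 1 (⊤ : Subgroup G) :=
          mem_oddGen (Subgroup.pow_mem _ hg m) hm
        have h5 : QuotientGroup.mk' (T 1 (⊤ : Subgroup G)) (g ^ m) = 1 := (QuotientGroup.eq_one_iff _).2 h3
        have h4 : QuotientGroup.mk' (T 1 (⊤ : Subgroup G)) g = QuotientGroup.mk' (T 1 (⊤ : Subgroup G)) (g ^ n) := by
          conv_lhs => rw [hx]
          rw [map_mul, h5, one_mul]
        rw [h4]
        exact hn.map _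
      · rw [Subgroup.index, Nat.coprime_two_right]
        apply odd_card_of_odd_orderOf
        intro x
        obtain ⟨y, rfl⟩ := QuotientGroup.mk'_surjective _ x
        obtain ⟨g, rfl⟩ := QuotientGroup.mk'_surjective _ y
        obtain ⟨m, n, hm, hn, hx⟩ := exists_odd_mul_two g
        have h3 : g ^ n ∈ twoGen (⊤ : Subgroup G) := mem_twoGen trivial hn
        have h4 : QuotientGroup.mk' ((twoGen (⊤ : Subgroup G)).map (QuotientGroup.mk' (T 1 (⊤ : Subgroup G))))
            (QuotientGroup.mk' (T 1 (⊤ : Subgroup G)) (g ^ n)) = 1 :=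
          (QuotientGroup.eq_one_iff _).2 ⟨_, h3, rfl⟩
        have h5 : g = g ^ m * g ^ n := hx
        rw [h5, map_mul, map_mul, h4, mul_one]
        exact Odd.of_dvd_nat hm ((orderOf_map_dvd _ _).trans (orderOf_map_dvd _ _))
    exact pLengthLE_ext _ h1 h2

/-- in characteristic two `(a - 1) ^ (2 ^ e - 1) = 1 + a + ... + a ^ (2 ^ e - 1)` -/
theorem sub_one_pow {A : Type*} [Ring A] [Algebra (ZMod 2) A] (a : A) (e : ℕ) :
    (a - 1) ^ (2 ^ e - 1) = ∑ i ∈ Finset.range (2 ^ e), a ^ i := by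
  have key : ((Polynomial.X : Polynomial (ZMod 2)) - 1) ^ (2 ^ e - 1) =
      ∑ i ∈ Finset.range (2 ^ e), Polynomial.X ^ i := by
    have hne : ((Polynomial.X : Polynomial (ZMod 2)) - 1) ≠ 0 := by
      have := Polynomial.X_sub_C_ne_zero (1 : ZMod 2)
      rwa [Polynomial.C_1] at this
    refine mul_right_cancel₀ hne ?_
    rw [geom_sum_mul, ← pow_succ, Nat.sub_add_cancel Nat.one_le_two_pow]
    rw [sub_pow_char_pow, one_pow]
  have h := congrArg (Polynomial.aeval a) key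
  simpa using h

/-- `(h z) ^ k = w z ^ k` with `w ∈ P` of image `(1 + ρ z + ... + (ρ z) ^ (k - 1)) (π h)` -/
theorem exists_mul_pow {Q : Type*} [Group Q] (P : Subgroup Q) [hP : P.Normal] {V : Type*} [AddCommGroup V]
    [Module (ZMod 2) V] (π : ↥P → V) (hadd : ∀ a b : ↥P, π (a * b) = π a + π b)
    (h1 : π 1 = 0) (ρ : Q →* Module.End (ZMod 2) V)
    (hρ : ∀ (x : Q) (h : ↥P), ρ x (π h) = π ⟨x * h * x⁻¹, hP.conj_mem h h.2 x⟩) (z : Q) (h : ↥P) (k : ℕ) :
    ∃ w : ↥P, ((h : Q) * z) ^ k = w * z ^ k ∧ π w = (∑ i ∈ Finset.range k, (ρ z) ^ i) (π h) := by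
  induction k with
  | zero => exact ⟨1, by simp, by simpa using h1⟩
  | succ k ih =>
    obtain ⟨w, hw, hπ⟩ := ih
    refine ⟨h * ⟨z * w * z⁻¹, hP.conj_mem w w.2 z⟩, ?_, ?_⟩
    · rw [pow_succ', hw, pow_succ']
      push_cast
      group
    · rw [hadd, ← hρ, hπ, Finset.sum_range_succ']
      simp only [pow_zero, LinearMap.add_apply, Module.End.one_apply, pow_succ', LinearMap.sum_apply,
        Module.End.mul_apply, map_sum]
      rw [add_comm]

/-- **Part (b).** -/
theorem odd_of_EAt (e : ℕ) (he : 1 ≤ e) (G : Type u) [Group G] [Finite G] (hG : IsPSolvable 2 G)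
    (hexp : ∀ x : G, IsTwo x → x ^ 2 ^ e = 1)
    (hE : ∀ (X : Type u) [Group X] [Finite X], IsPSolvable 2 X → Nat.card X < Nat.card G → EAt.{u} e X) :
    Odd (Nat.card (T e (⊤ : Subgroup G))) := by
  have : Fact (Nat.Prime 2) := ⟨Nat.prime_two⟩
  have hRodd : Odd (Nat.card (pPrimeCore 2 G)) := Nat.coprime_two_right.1 (PLengthOne.card_pPrimeCore_coprime 2)
  set Q := G ⧸ pPrimeCore 2 G with hQdef
  have hQsol : IsPSolvable 2 Q :=
    Lib.PSolvable.IsPSolvable_of_surjective 2 hG (QuotientGroup.mk' (pPrimeCore 2 G)) (QuotientGroup.mk'_surjective _)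
  have hQcore : pPrimeCore 2 Q = ⊥ := PLengthOne.pPrimeCore_quotient_pPrimeCore 2
  have hc : Subgroup.centralizer (pCore 2 Q : Set Q) ≤ pCore 2 Q :=
    Lib.PSolvable.centralizer_pCore_le_of_pSolvable 2 hQsol hQcore
  have hP2 : IsPGroup 2 (pCore 2 Q) := PLengthOne.isPGroup_pCore 2
  have hexpQ : ∀ x : Q, IsTwo x → x ^ 2 ^ e = 1 := by
    intro x hx
    obtain ⟨g, rfl⟩ := QuotientGroup.mk'_surjective _ x
    obtain ⟨n, hn, hgn⟩ := exists_two_lift (QuotientGroup.mk' (pPrimeCore 2 G)) g hx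
    rw [← hgn, ← map_pow, hexp _ hn, map_one]
  -- reduction to the quotient
  suffices hQ : T e (⊤ : Subgroup Q) = ⊥ by
    have h1 : (T e (⊤ : Subgroup G)).map (QuotientGroup.mk' (pPrimeCore 2 G)) = ⊥ := by
      rw [T_map_top _ (QuotientGroup.mk'_surjective _), hQ]
    have h2 : T e (⊤ : Subgroup G) ≤ pPrimeCore 2 G := by
      intro x hx
      have h3 : QuotientGroup.mk' (pPrimeCore 2 G) x ∈ (⊥ : Subgroup Q) := by
        rw [← h1]; exact ⟨x, hx, rfl⟩
      exact (QuotientGroup.eq_one_iff x).1 (Subgroup.mem_bot.1 h3)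
    exact Odd.of_dvd_nat hRodd (Subgroup.card_dvd_of_le h2)
  suffices hQP : T e (⊤ : Subgroup Q) ≤ pCore 2 Q by
    obtain ⟨k, rfl⟩ : ∃ k, e = k + 1 := ⟨e - 1, by omega⟩
    rw [← oddGen_T_succ, eq_bot_iff]
    refine (Subgroup.closure_le _).2 ?_
    rintro x ⟨hx, ho⟩
    exact eq_one_of_isTwo_of_odd (isTwo_of_isPGroup hP2 (hQP hx)) ho
  -- the case of a trivial quotient
  have hcardQ : Nat.card Q ≤ Nat.card G := Nat.card_le_card_of_surjective _ (QuotientGroup.mk'_surjective _)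
  by_cases hX : Nat.card (Q ⧸ pCore 2 Q) < Nat.card G
  swap
  · have h1 : Nat.card Q = Nat.card (Q ⧸ pCore 2 Q) * Nat.card (pCore 2 Q) :=
      Subgroup.card_eq_card_quotient_mul_card_subgroup _
    have h2 : 0 < Nat.card (Q ⧸ pCore 2 Q) := Nat.card_pos
    have h3 : Nat.card (pCore 2 Q) = 1 := by
      have h4 : 0 < Nat.card (pCore 2 Q) := Nat.card_pos
      by_contra h5
      have h6 : 2 ≤ Nat.card (pCore 2 Q) := by omega
      have h7 : Nat.card (Q ⧸ pCore 2 Q) * 2 ≤ Nat.card Q := by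
        rw [h1]; exact Nat.mul_le_mul_left _ h6
      omega
    have h4 : pCore 2 Q = ⊥ := Subgroup.eq_bot_of_card_eq _ h3
    intro x _
    apply hc
    rw [h4]
    simp [Subgroup.mem_centralizer_iff]
  -- the module
  have hFn : ((frattini (pCore 2 Q)).map (pCore 2 Q).subtype).Normal := inferInstance
  have hPn : (pCore 2 Q).Normal := inferInstance
  obtain ⟨V, i1, i2, π, hsurj, hadd, hker, -⟩ :=
    OddOrderCharacters.PF9.SectionModule.exists_module 2 (pCore 2 Q)
      ((frattini (pCore 2 Q)).map (pCore 2 Q).subtype)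
      (fun h _ k hk => hFn.conj_mem k hk h)
      (fun a ha b hb => ⟨⟨a, ha⟩ * ⟨b, hb⟩ * ⟨a, ha⟩⁻¹ * ⟨b, hb⟩⁻¹,
        Lib.FrattiniPGroup.commutator_mem_frattini hP2 _ _, rfl⟩)
      (fun a ha => ⟨⟨a, ha⟩ ^ 2, Lib.FrattiniPGroup.pow_mem_frattini hP2 _, rfl⟩)
  obtain ⟨ρ, hρ⟩ := OddOrderCharacters.PF9.SectionModule.exists_rep_normal (p := 2) hsurj hadd hker hPn hFn
  have hπ1 : π 1 = 0 := OddOrderCharacters.PF9.SectionModule.pi_one hadd
  have hVfin : Finite V := Finite.of_surjective _ hsurj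
  have htriv : ∀ x ∈ pCore 2 Q, ρ x = 1 := by
    intro x hx
    ext v
    obtain ⟨h, rfl⟩ := hsurj v
    rw [hρ, Module.End.one_apply]
    have h1 : (⟨x * h * x⁻¹, hPn.conj_mem h h.2 x⟩ : pCore 2 Q) = ⟨x, hx⟩ * h * ⟨x, hx⟩⁻¹ := rfl
    rw [h1, hadd, hadd, OddOrderCharacters.PF9.SectionModule.pi_inv hadd]
    abel
  let ρX : Q ⧸ pCore 2 Q →* Module.End (ZMod 2) V := QuotientGroup.lift (pCore 2 Q) ρ htriv
  have hρX : ∀ x : Q, ρX (QuotientGroup.mk' (pCore 2 Q) x) = ρ x := fun x => rfl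
  have hXsol : IsPSolvable 2 (Q ⧸ pCore 2 Q) :=
    Lib.PSolvable.IsPSolvable_of_surjective 2 hQsol (QuotientGroup.mk' (pCore 2 Q)) (QuotientGroup.mk'_surjective _)
  have hmain := hE (Q ⧸ pCore 2 Q) hXsol hX V ρX ?_
  · -- faithfulness
    intro x hx
    have h1 : QuotientGroup.mk' (pCore 2 Q) x ∈ T e (⊤ : Subgroup (Q ⧸ pCore 2 Q)) := by
      rw [← T_map_top _ (QuotientGroup.mk'_surjective _)]
      exact ⟨x, hx, rfl⟩
    have h2 : ρ x = 1 := by rw [← hρX]; exact hmain _ h1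
    have h3 : x ∈ sectionKernel (pCore 2 Q) ((frattini (pCore 2 Q)).map (pCore 2 Q).subtype) := by
      rw [PLocal.SectionFrattini.mem_sectionKernel]
      intro k hk
      have h4 := congrArg (fun f => f (π (⟨k, hk⟩⁻¹ : pCore 2 Q))) h2
      simp only [Module.End.one_apply] at h4
      rw [hρ] at h4
      have h5 := (OddOrderCharacters.PF9.SectionModule.pi_eq_iff hadd hker _ _).1 h4.symm
      change (k⁻¹)⁻¹ * (x * k⁻¹ * x⁻¹) ∈ _ at h5
      have h6 : (k⁻¹)⁻¹ * (x * k⁻¹ * x⁻¹) = ⁅k, x⁆ := by rw [commutatorElement_def]; group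
      rwa [h6] at h5
    have h4 : IsPGroup 2 (sectionKernel (pCore 2 Q) ((frattini (pCore 2 Q)).map (pCore 2 Q).subtype)) :=
      PLocal.SectionFrattini.isPGroup_sectionKernel_frattini (pCore 2 Q) hP2 hc
    have h5 : (sectionKernel (pCore 2 Q) ((frattini (pCore 2 Q)).map (pCore 2 Q).subtype)).Normal := by
      unfold sectionKernel
      infer_instance
    exact PLengthOne.le_pCore h5 h4 h3
  · intro y hy
    obtain ⟨x, rfl⟩ := QuotientGroup.mk'_surjective _ y
    obtain ⟨n, hn, hxn⟩ := exists_two_lift (QuotientGroup.mk' (pCore 2 Q)) x hy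
    rw [← hxn, hρX, sub_one_pow]
    ext v
    obtain ⟨h, rfl⟩ := hsurj v
    obtain ⟨w, hw, hπw⟩ := exists_mul_pow (pCore 2 Q) π hadd hπ1 ρ hρ (x ^ n) h (2 ^ e)
    rw [hexpQ _ hn, mul_one] at hw
    have h2 : IsTwo ((h : Q) * x ^ n) := by
      obtain ⟨k, hk⟩ := hn
      obtain ⟨w', hw', -⟩ := exists_mul_pow (pCore 2 Q) π hadd hπ1 ρ hρ (x ^ n) h (2 ^ k)
      rw [hk, mul_one] at hw'
      obtain ⟨l, hl⟩ := isTwo_of_isPGroup hP2 w'.2
      exact ⟨k + l, by rw [pow_add, pow_mul, hw', hl]⟩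
    rw [hexpQ _ h2] at hw
    have h3 : w = 1 := Subtype.ext hw.symm
    rw [← hπw, h3, hπ1]
    rfl

end Cfsg.Agent.H979.TwoLenA
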