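import Mathlib
set_option linter.all false

/-!
# Part Q5 of helper552's plan for S4258
-/

set_option autoImplicit false
set_option linter.unusedSectionVars false
set_option linter.unusedVariables false

namespace Cfsg.Agent.H979.TwoLenQ5

section perm

variable {L : Type*} [Group L] [Finite L] {S : Type*} [MulAction L S]

theorem odd_orbit (H : Subgroup L) (hL : Odd (Nat.card H)) (s : S) : Odd (MulAction.orbit H s).ncard := by
  rw [← MulAction.index_stabilizer]
  exact Odd.of_dvd_nat hL (Subgroup.index_dvd_card _)

variable [Finite S]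

theorem three_le_orbit (H : Subgroup L) (hL : Odd (Nat.card H)) {s : S} (hs : ∃ h ∈ H, h • s ≠ s) :
    3 ≤ (MulAction.orbit H s).ncard := by
  have h1 := odd_orbit H hL s
  obtain ⟨h, hh, hne⟩ := hs
  have h2 : 1 < (MulAction.orbit H s).ncard := by
    rw [Set.one_lt_ncard_iff]
    exact ⟨h • s, s, ⟨⟨h, hh⟩, rfl⟩, MulAction.mem_orbit_self s, hne⟩
  obtain ⟨k, hk⟩ := h1
  omega

/-- an orbit is disjoint from the orbit of an element outside it -/
theorem orbit_disj (H : Subgroup L) {s c : S} (hc : c ∉ MulAction.orbit H s) :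
    Disjoint (MulAction.orbit H s) (MulAction.orbit H c) := by
  rw [Set.disjoint_left]
  intro x hx hxc
  apply hc
  rw [← MulAction.orbit_eq_iff] at hx hxc ⊢
  rw [← hx, hxc]

theorem trans_of_small (hL : Odd (Nat.card L)) (hne : Nonempty S) (h5 : Nat.card S ≤ 5)
    (hfix : ∀ s : S, ∃ l : L, l • s ≠ s) :
    (∀ a b : S, ∃ l : L, l • a = b) ∧ (Nat.card S = 3 ∨ Nat.card S = 5) := by
  have hT : Odd (Nat.card (⊤ : Subgroup L)) := by rwa [Subgroup.card_top]
  have h3 : ∀ s : S, 3 ≤ (MulAction.orbit (⊤ : Subgroup L) s).ncard := fun s =>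
    three_le_orbit ⊤ hT (by obtain ⟨l, hl⟩ := hfix s; exact ⟨l, Subgroup.mem_top l, hl⟩)
  have hall : ∀ a : S, MulAction.orbit (⊤ : Subgroup L) a = Set.univ := by
    intro a
    by_contra hcon
    obtain ⟨c, hc⟩ := (Set.ne_univ_iff_exists_notMem _).1 hcon
    have h1 := Set.ncard_union_eq (orbit_disj ⊤ hc)
    have h2 := Set.ncard_le_card (MulAction.orbit (⊤ : Subgroup L) a ∪ MulAction.orbit (⊤ : Subgroup L) c)
    have h4 := h3 a
    have h5 := h3 c
    omega
  constructor
  · intro a b
    have h1 : b ∈ MulAction.orbit (⊤ : Subgroup L) a := by rw [hall a]; trivial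
    obtain ⟨l, hl⟩ := h1
    exact ⟨l.1, hl⟩
  · obtain ⟨a⟩ := hne
    have h1 := h3 a
    have h2 := odd_orbit ⊤ hT a
    rw [hall a, Set.ncard_univ] at h1 h2
    obtain ⟨k, hk⟩ := h2
    omega

/-- a point stabilizer has a second fixed point -/
theorem second_fixed (hL : Odd (Nat.card L)) (h3 : 3 ≤ Nat.card S) (h5 : Nat.card S ≤ 5) (hodd : Odd (Nat.card S))
    (a : S) : ∃ b : S, b ≠ a ∧ MulAction.stabilizer L a ≤ MulAction.stabilizer L b := by
  by_contra hcon
  push Not at hcon
  set H := MulAction.stabilizer L a with hH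
  have hHo : Odd (Nat.card H) := Odd.of_dvd_nat hL (Subgroup.card_subgroup_dvd_card H)
  have hlarge : ∀ b : S, b ≠ a → 3 ≤ (MulAction.orbit H b).ncard := by
    intro b hb
    have h1 := hcon b hb
    rw [SetLike.not_le_iff_exists] at h1
    obtain ⟨h, hh, hhb⟩ := h1
    exact three_le_orbit H hHo ⟨h, hh, hhb⟩
  have ha : MulAction.orbit H a = {a} := by
    ext x
    constructor
    · rintro ⟨h, rfl⟩
      exact h.2
    · rintro rfl
      exact MulAction.mem_orbit_self x
  obtain ⟨b, hb⟩ : ∃ b : S, b ≠ a := by
    have : Nontrivial S := Finite.one_lt_card_iff_nontrivial.1 (by omega)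
    exact exists_ne a
  have hba : b ∉ MulAction.orbit H a := by rw [ha]; exact hb
  have h1 := Set.ncard_union_eq (orbit_disj H hba)
  have h2 := Set.ncard_le_card (MulAction.orbit H a ∪ MulAction.orbit H b)
  have h3' := hlarge b hb
  have h4 := odd_orbit H hHo b
  have h5' : (MulAction.orbit H a).ncard = 1 := by rw [ha, Set.ncard_singleton]
  have h6 : MulAction.orbit H a ∪ MulAction.orbit H b ≠ Set.univ := by
    intro h
    rw [h, Set.ncard_univ] at h1
    obtain ⟨i, hi⟩ := h4
    obtain ⟨j, hj⟩ := hodd
    omega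
  obtain ⟨c, hc⟩ := (Set.ne_univ_iff_exists_notMem _).1 h6
  rw [Set.mem_union, not_or] at hc
  have hca : c ≠ a := by
    rintro rfl
    exact hc.1 (MulAction.mem_orbit_self c)
  have h7 : Disjoint (MulAction.orbit H a ∪ MulAction.orbit H b) (MulAction.orbit H c) :=
    Set.disjoint_union_left.2 ⟨orbit_disj H hc.1, orbit_disj H hc.2⟩
  have h8 := Set.ncard_union_eq h7
  have h9 := Set.ncard_le_card (MulAction.orbit H a ∪ MulAction.orbit H b ∪ MulAction.orbit H c)
  have h10 := hlarge c hca
  omega

/-- a transitive group of odd order on 3 or 5 points is regular -/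
theorem stab_le (hL : Odd (Nat.card L)) (htr : ∀ a b : S, ∃ l : L, l • a = b)
    (hS : Nat.card S = 3 ∨ Nat.card S = 5) (a b : S) :
    MulAction.stabilizer L a ≤ MulAction.stabilizer L b := by
  have hp : (Nat.card S).Prime := by rcases hS with h | h <;> rw [h] <;> norm_num
  have hodd : Odd (Nat.card S) := by rcases hS with h | h <;> rw [h] <;> decide
  have htr' : MulAction.IsPretransitive L S := ⟨htr⟩
  -- cards of stabilizers
  have hcard : ∀ c d : S, MulAction.stabilizer L c ≤ MulAction.stabilizer L d →
      MulAction.stabilizer L c = MulAction.stabilizer L d := by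
    intro c d hcd
    apply Subgroup.eq_of_le_of_card_ge hcd
    have h1 := (MulAction.stabilizer L c).card_mul_index
    have h2 := (MulAction.stabilizer L d).card_mul_index
    rw [MulAction.index_stabilizer_of_transitive] at h1 h2
    have h3 : Nat.card (MulAction.stabilizer L d) * Nat.card S = Nat.card (MulAction.stabilizer L c) * Nat.card S := by
      rw [h1, h2]
    exact (Nat.eq_of_mul_eq_mul_right hp.pos h3).le
  let F : Set S := {c | MulAction.stabilizer L a = MulAction.stabilizer L c}
  have hFb : MulAction.IsBlock L F := by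
    rw [MulAction.isBlock_iff_smul_eq_of_nonempty]
    rintro g ⟨x, ⟨y, hy, hyx⟩, hx⟩
    -- `x = g • y`, both in `F`
    have hy' : MulAction.stabilizer L a = MulAction.stabilizer L y := hy
    have hx' : MulAction.stabilizer L a = MulAction.stabilizer L x := hx
    have hgy : x = g • y := hyx.symm
    have hkey : ∀ c : S, MulAction.stabilizer L (g • c) = MulAction.stabilizer L a ↔
        MulAction.stabilizer L c = MulAction.stabilizer L a := by
      intro c
      have e1 := MulAction.stabilizer_smul_eq_stabilizer_map_conj g c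
      have e2 := MulAction.stabilizer_smul_eq_stabilizer_map_conj g y
      rw [← hgy, ← hx', ← hy'] at e2
      have hinj : Function.Injective (Subgroup.map (MulAut.conj g).toMonoidHom) :=
        Subgroup.map_injective (MulAut.conj g).injective
      rw [e1]
      constructor
      · intro h
        exact hinj (h.trans e2)
      · intro h
        rw [h, ← e2]
    ext c
    rw [Set.mem_smul_set_iff_inv_smul_mem]
    have h1 := hkey (g⁻¹ • c)
    rw [smul_inv_smul] at h1
    exact ⟨fun h => (h1.2 (Eq.symm h)).symm, fun h => (h1.1 (Eq.symm h)).symm⟩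
  have hFne : F.Nonempty := ⟨a, rfl⟩
  have hdvd := hFb.ncard_dvd_card hFne
  obtain ⟨b', hb', hb''⟩ := second_fixed hL (by rcases hS with h | h <;> omega) (by rcases hS with h | h <;> omega)
    hodd a
  have h1 : 1 < F.ncard := by
    rw [Set.one_lt_ncard_iff]
    exact ⟨b', a, hcard _ _ hb'', rfl, hb'⟩
  have h2 : F.ncard = Nat.card S := by
    rcases (Nat.dvd_prime hp).1 hdvd with h | h
    · omega
    · exact h
  have h3 : F = Set.univ := by
    apply Set.eq_of_subset_of_ncard_le (Set.subset_univ F)
    rw [Set.ncard_univ, h2]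
  have h4 : b ∈ F := by rw [h3]; trivial
  exact le_of_eq h4

end perm

section mod

variable {L : Type*} [Group L] [Finite L] {M : Type*} [AddCommGroup M] [Module (ZMod 2) M] [Finite M]

/-- the action of `L` on an invariant set -/
@[reducible] def act (τ : L →* Module.End (ZMod 2) M) (X : Set M) (hX : ∀ l, ∀ m ∈ X, τ l m ∈ X) :
    MulAction L X where
  smul l x := ⟨τ l x, hX l x x.2⟩
  one_smul x := by
    apply Subtype.ext
    show τ 1 (x : M) = x
    rw [map_one, Module.End.one_apply]
  mul_smul a b x := by
    apply Subtype.ext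
    show τ (a * b) (x : M) = τ a (τ b x)
    rw [map_mul, Module.End.mul_apply]

theorem of_set (hL : Odd (Nat.card L)) (τ : L →* Module.End (ZMod 2) M) (X : Set M)
    (hX : ∀ l, ∀ m ∈ X, τ l m ∈ X) (hne : X.Nonempty) (h5 : X.ncard ≤ 5) (hfix : ∀ x ∈ X, ∃ l, τ l x ≠ x)
    (hspan : ∀ l, (∀ x ∈ X, τ l x = x) → τ l = 1) :
    (X.ncard = 3 ∨ X.ncard = 5) ∧ τ.ker.index = X.ncard ∧ ∀ l l', τ l * τ l' = τ l' * τ l := by
  let _ := act τ X hX
  have hsm : ∀ (l : L) (x : X), ((l • x : X) : M) = τ l x := fun l x => rfl
  have hneX : Nonempty X := hne.to_subtype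
  have hc : Nat.card X = X.ncard := Nat.card_coe_set_eq X
  obtain ⟨htr, h35⟩ := trans_of_small (S := X) hL hneX (by rw [hc]; exact h5) (by
    rintro ⟨x, hx⟩
    obtain ⟨l, hl⟩ := hfix x hx
    exact ⟨l, fun h => hl (congrArg Subtype.val h)⟩)
  have hst := stab_le hL htr h35
  obtain ⟨a⟩ := hneX
  have hker : τ.ker = MulAction.stabilizer L a := by
    ext l
    rw [MonoidHom.mem_ker, MulAction.mem_stabilizer_iff]
    constructor
    · intro h
      apply Subtype.ext
      rw [hsm, h, Module.End.one_apply]
    · intro h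
      apply hspan
      intro x hx
      have h1 := hst a ⟨x, hx⟩ h
      exact congrArg Subtype.val h1
  have hidx : τ.ker.index = X.ncard := by
    have : MulAction.IsPretransitive L X := ⟨htr⟩
    rw [hker, MulAction.index_stabilizer_of_transitive, hc]
  refine ⟨by rw [← hc]; exact h35, hidx, ?_⟩
  have hprime : (Nat.card (L ⧸ τ.ker)).Prime := by
    change τ.ker.index.Prime
    rw [hidx, ← hc]
    rcases h35 with h | h <;> rw [h] <;> norm_num
  have : Fact (Nat.card (L ⧸ τ.ker)).Prime := ⟨hprime⟩
  have hcyc : IsCyclic (L ⧸ τ.ker) := isCyclic_of_prime_card rfl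
  intro l l'
  rw [← map_mul, ← map_mul]
  have h1 : (QuotientGroup.mk l : L ⧸ τ.ker) * QuotientGroup.mk l' = QuotientGroup.mk l' * QuotientGroup.mk l :=
    (IsCyclic.isMulCommutative (α := L ⧸ τ.ker)).is_comm.comm _ _
  have h2 : (QuotientGroup.mk (l * l') : L ⧸ τ.ker) = QuotientGroup.mk (l' * l) := h1
  rw [QuotientGroup.eq, MonoidHom.mem_ker, map_mul] at h2
  have h3 : τ (l * l') * (τ (l * l')⁻¹ * τ (l' * l)) = τ (l * l') * 1 := by rw [h2]
  rw [← mul_assoc, ← map_mul, mul_inv_cancel, map_one, one_mul, mul_one] at h3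
  exact h3.symm

/-- **Part Q5 of the plan for S4258.** -/
theorem quad {L : Type*} [Group L] [Finite L] (hL : Odd (Nat.card L)) {M : Type*} [AddCommGroup M]
    [Module (ZMod 2) M] [Finite M] (τ : L →* Module.End (ZMod 2) M) (qf : M → ZMod 2)
    (B : M →ₗ[ZMod 2] M →ₗ[ZMod 2] ZMod 2) (hq : ∀ a b, qf (a + b) = qf a + qf b + B a b)
    (hB : ∀ a, (∀ b, B a b = 0) → a = 0) (hinv : ∀ l m, qf (τ l m) = qf m)
    (hfix : ∀ m, (∀ l, τ l m = m) → m = 0)
    (hsing : ∀ a b, qf a = 0 → qf b = 0 → B a b = 0 → a = 0 ∨ b = 0 ∨ a = b) :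
    (∀ l l', τ l * τ l' = τ l' * τ l) ∧
      ((∀ m, m ≠ 0 → qf m ≠ 0) ∨ (Nat.card M = 16 ∧ τ.ker.index = 5)) := by
  classical
  have hchar : ∀ w : M, w + w = 0 := by
    intro w
    rw [← two_smul (ZMod 2)]
    have : (2 : ZMod 2) = 0 := by decide
    rw [this, zero_smul]
  have hadd : ∀ a b : M, a + b = 0 → a = b := by
    intro a b h
    have h1 : a + b + b = b := by rw [h, zero_add]
    rwa [add_assoc, hchar, add_zero] at h1
  have hz2 : ∀ c : ZMod 2, c + c = 0 := by decide
  have h01 : ∀ c : ZMod 2, c ≠ 0 → c = 1 := by decide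
  have hq0 : qf 0 = 0 := by
    have := hq 0 0
    rw [add_zero, map_zero, hz2, add_zero] at this
    exact this
  have hBaa : ∀ a, B a a = 0 := by
    intro a
    have h1 := hq a a
    rw [hchar, hq0, hz2, zero_add] at h1
    exact h1.symm
  have hBinv : ∀ l a b, B (τ l a) (τ l b) = B a b := by
    intro l a b
    have h1 := hq (τ l a) (τ l b)
    rw [← map_add, hinv, hinv, hinv, hq a b] at h1
    exact (add_left_cancel h1).symm
  have hnofix : ∀ m, m ≠ 0 → ∃ l, τ l m ≠ m := by
    intro m hm
    by_contra hcon
    push Not at hcon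
    exact hm (hfix m hcon)
  have hτ0 : ∀ l m, m ≠ 0 → τ l m ≠ 0 := by
    intro l m hm h
    apply hm
    have h1 : τ l⁻¹ (τ l m) = m := by
      rw [← Module.End.mul_apply, ← map_mul, inv_mul_cancel, map_one, Module.End.one_apply]
    rw [← h1, h, map_zero]
  by_cases hane : ∀ m, m ≠ 0 → qf m ≠ 0
  · -- anisotropic
    refine ⟨?_, Or.inl hane⟩
    by_cases hM : ∃ m : M, m ≠ 0
    · have hB1 : ∀ a b, a ≠ 0 → b ≠ 0 → a ≠ b → B a b = 1 := by
        intro a b ha hb hab
        have h1 := hq a b
        rw [h01 _ (hane a ha), h01 _ (hane b hb), h01 _ (hane (a + b) fun h => hab (hadd a b h)), hz2, zero_add] at h1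
        exact h1.symm
      refine (of_set hL τ {m | m ≠ 0} (fun l m hm => hτ0 l m hm) hM ?_ (fun x hx => hnofix x hx) ?_).2.2
      · by_contra hcon
        push Not at hcon
        have : Fintype {m : M | m ≠ 0} := Fintype.ofFinite _
        obtain ⟨f⟩ := Function.Embedding.nonempty_of_card_le (α := Fin 6) (β := {m : M | m ≠ 0}) (by
          rw [Fintype.card_fin, ← Nat.card_eq_fintype_card, Nat.card_coe_set_eq]; exact hcon)
        have hne : ∀ i j : Fin 6, i ≠ j → (f i : M) ≠ f j := fun i j hij h => hij (f.injective (Subtype.ext h))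
        have hstep : ∀ i : Fin 6, i ≠ 0 → i ≠ 1 → (f 1 : M) + f i = f 0 := by
          intro i hi0 hi1
          by_contra hne'
          have h1 : B (f 0) (f 1 + f i) = 1 := hB1 _ _ (f 0).2
            (fun h => hne 1 i (Ne.symm hi1) (hadd _ _ h)) (Ne.symm hne')
          rw [map_add, hB1 _ _ (f 0).2 (f 1).2 (hne 0 1 (by decide)),
            hB1 _ _ (f 0).2 (f i).2 (hne 0 i (Ne.symm hi0))] at h1
          exact absurd h1 (by decide)
        have h2 := hstep 2 (by decide) (by decide)
        have h3 := hstep 3 (by decide) (by decide)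
        exact hne 2 3 (by decide) (add_left_cancel (h2.trans h3.symm))
      · intro l h
        ext m
        by_cases hm : m = 0
        · rw [hm, map_zero, map_zero]
        · rw [h m hm, Module.End.one_apply]
    · push Not at hM
      intro l l'
      ext m
      rw [hM m, map_zero, map_zero]
  · -- isotropic
    push Not at hane
    set X : Set M := {m | m ≠ 0 ∧ qf m = 0} with hXdef
    have hXne : X.Nonempty := hane
    have hXinv : ∀ l, ∀ m ∈ X, τ l m ∈ X := fun l m hm => ⟨hτ0 l m hm.1, by rw [hinv]; exact hm.2⟩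
    have hB1 : ∀ a ∈ X, ∀ b ∈ X, a ≠ b → B a b = 1 := by
      intro a ha b hb hab
      apply h01
      intro h
      rcases hsing a b ha.2 hb.2 h with h1 | h1 | h1
      · exact ha.1 h1
      · exact hb.1 h1
      · exact hab h1
    have hcard5 : X.ncard ≤ 5 := by
      by_contra hcon
      push Not at hcon
      have : Fintype X := Fintype.ofFinite _
      obtain ⟨f⟩ := Function.Embedding.nonempty_of_card_le (α := Fin 6) (β := X) (by
        rw [Fintype.card_fin, ← Nat.card_eq_fintype_card, Nat.card_coe_set_eq]; exact hcon)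
      have hne : ∀ i j : Fin 6, i ≠ j → (f i : M) ≠ f j := fun i j hij h => hij (f.injective (Subtype.ext h))
      have hBf : ∀ i j : Fin 6, i ≠ j → B (f i) (f j) = 1 := fun i j hij => hB1 _ (f i).2 _ (f j).2 (hne i j hij)
      have hsX : (f 0 + f 1 + f 2 + f 3 : M) ∈ X := by
        constructor
        · intro h
          have h1 : B (f 0 + f 1 + f 2 + f 3 : M) (f 0) = 0 := by rw [h, map_zero, LinearMap.zero_apply]
          simp only [map_add, LinearMap.add_apply] at h1
          rw [hBaa, hBf 1 0 (by decide), hBf 2 0 (by decide), hBf 3 0 (by decide)] at h1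
          exact absurd h1 (by decide)
        · rw [hq, hq, hq, (f 0).2.2, (f 1).2.2, (f 2).2.2, (f 3).2.2]
          simp only [map_add, LinearMap.add_apply]
          rw [hBf 0 1 (by decide), hBf 0 2 (by decide), hBf 1 2 (by decide), hBf 0 3 (by decide),
            hBf 1 3 (by decide), hBf 2 3 (by decide)]
          decide
      have hlast : ∀ i : Fin 6, 4 ≤ i → (f 0 + f 1 + f 2 + f 3 : M) = f i := by
        intro i hi
        by_contra hne'
        have h1 := hB1 _ hsX _ (f i).2 hne'
        simp only [map_add, LinearMap.add_apply] at h1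
        have h0 : (0 : Fin 6) ≠ i := by rintro rfl; exact absurd hi (by decide)
        have h1' : (1 : Fin 6) ≠ i := by rintro rfl; exact absurd hi (by decide)
        have h2' : (2 : Fin 6) ≠ i := by rintro rfl; exact absurd hi (by decide)
        have h3' : (3 : Fin 6) ≠ i := by rintro rfl; exact absurd hi (by decide)
        rw [hBf 0 i h0, hBf 1 i h1', hBf 2 i h2', hBf 3 i h3'] at h1
        exact absurd h1 (by decide)
      exact hne 4 5 (by decide) ((hlast 4 (by decide)).symm.trans (hlast 5 (by decide)))
    -- the sum of the singular vectors vanishes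
    have : Fintype X := Fintype.ofFinite _
    have hsum : ∑ x : X, (x : M) = 0 := by
      apply hfix
      intro l
      rw [map_sum]
      let _ := act τ X hXinv
      exact Equiv.sum_comp (MulAction.toPerm l : Equiv.Perm X) (fun x : X => (x : M))
    -- the card is 3 or 5; the orbits
    have h35 : X.ncard = 3 ∨ X.ncard = 5 := by
      let _ := act τ X hXinv
      have h1 := (trans_of_small (S := X) hL hXne.to_subtype (by rw [Nat.card_coe_set_eq]; exact hcard5) (by
        rintro ⟨x, hx⟩
        obtain ⟨l, hl⟩ := hnofix x hx.1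
        exact ⟨l, fun h => hl (congrArg Subtype.val h)⟩)).2
      rwa [Nat.card_coe_set_eq] at h1
    rcases h35 with h3 | h5
    · -- three singular vectors: impossible
      exfalso
      have e : Fin 3 ≃ X := (Fintype.equivFinOfCardEq (by
        rw [← Nat.card_eq_fintype_card, Nat.card_coe_set_eq, h3])).symm
      rw [← Equiv.sum_comp e, Fin.sum_univ_three] at hsum
      have h1 := hadd _ _ hsum
      have h2 := (e 2).2.2
      rw [← h1, hq, (e 0).2.2, (e 1).2.2, hB1 _ (e 0).2 _ (e 1).2 (fun h => by
        have := e.injective (Subtype.ext h)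
        exact absurd this (by decide))] at h2
      exact absurd h2 (by decide)
    · have e : Fin 5 ≃ X := (Fintype.equivFinOfCardEq (by
        rw [← Nat.card_eq_fintype_card, Nat.card_coe_set_eq, h5])).symm
      have hBe : ∀ i j : Fin 5, B (e i) (e j) = if i = j then 0 else 1 := by
        intro i j
        split_ifs with hij
        · rw [hij, hBaa]
        · exact hB1 _ (e i).2 _ (e j).2 fun h => hij (e.injective (Subtype.ext h))
      rw [← Equiv.sum_comp e, Fin.sum_univ_five] at hsum
      -- `X` separates
      have hsep : ∀ w : M, (∀ i : Fin 4, B w (e i.castSucc) = 0) → w = 0 := by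
        intro w hw
        by_contra hw0
        have hw0' : B w (e 0) = 0 := hw 0
        have hw1' : B w (e 1) = 0 := hw 1
        have hw2' : B w (e 2) = 0 := hw 2
        have hw3' : B w (e 3) = 0 := hw 3
        have hw4' : B w (e 4) = 0 := by
          have h1 : B w ((e 0 : M) + e 1 + e 2 + e 3 + e 4) = 0 := by rw [hsum, map_zero]
          simp only [map_add] at h1
          rwa [hw0', hw1', hw2', hw3', add_zero, add_zero, add_zero, zero_add] at h1
        have hwall : ∀ i : Fin 5, B w (e i) = 0 := by
          intro i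
          fin_cases i
          · exact hw0'
          · exact hw1'
          · exact hw2'
          · exact hw3'
          · exact hw4'
        by_cases hqw : qf w = 0
        · obtain ⟨j, hj⟩ := e.surjective ⟨w, hw0, hqw⟩
          have hj' : (e j : M) = w := by rw [hj]
          obtain ⟨i, hi⟩ : ∃ i : Fin 5, j ≠ i := (by decide : ∀ j : Fin 5, ∃ i : Fin 5, j ≠ i) j
          have h1 := hwall i
          rw [← hj', hBe, if_neg hi] at h1
          exact absurd h1 (by decide)
        · have h1 : w + (e 0 + e 1) ∈ X := by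
            constructor
            · intro h
              have h2 : B (w + (e 0 + e 1)) (e 0) = 0 := by rw [h, map_zero, LinearMap.zero_apply]
              simp only [map_add, LinearMap.add_apply] at h2
              rw [hw0', hBe, hBe] at h2
              exact absurd h2 (by decide)
            · rw [hq, hq, map_add, hw0', hw1', (e 0).2.2, (e 1).2.2, hBe, h01 _ hqw]
              decide
          obtain ⟨j, hj⟩ := e.surjective ⟨_, h1⟩
          have hj' : (e j : M) = w + (e 0 + e 1) := by rw [hj]
          have h2 : ∀ k : Fin 5, (if j = k then (0 : ZMod 2) else 1) =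
              0 + ((if (0 : Fin 5) = k then 0 else 1) + (if (1 : Fin 5) = k then 0 else 1)) := by
            intro k
            rw [← hBe j k, ← hBe 0 k, ← hBe 1 k, hj', ← hwall k]
            simp only [map_add, LinearMap.add_apply]
          exact (by decide : ∀ j : Fin 5, ¬ ∀ k : Fin 5, (if j = k then (0 : ZMod 2) else 1) =
              0 + ((if (0 : Fin 5) = k then 0 else 1) + (if (1 : Fin 5) = k then 0 else 1))) j h2
      -- the count
      have hM16 : Nat.card M = 16 := by
        let φ : M → Fin 4 → ZMod 2 := fun m i => B m (e i.castSucc)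
        have hinj : Function.Injective φ := by
          intro a b hab
          apply hadd
          apply hsep
          intro i
          have h1 : B a (e i.castSucc) = B b (e i.castSucc) := congrFun hab i
          rw [map_add, LinearMap.add_apply, h1, hz2]
        have hsurj : Function.Surjective φ := by
          intro c
          refine ⟨∑ i : Fin 4, ((∑ k, c k) + c i) • (e i.castSucc : M), ?_⟩
          funext j
          show B (∑ i : Fin 4, ((∑ k, c k) + c i) • (e i.castSucc : M)) (e j.castSucc) = c j
          rw [map_sum, LinearMap.sum_apply]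
          simp only [map_smul, LinearMap.smul_apply, hBe, smul_eq_mul]
          revert c j
          decide
        rw [Nat.card_congr (Equiv.ofBijective φ ⟨hinj, hsurj⟩)]
        simp
      have h1 := of_set hL τ X hXinv hXne hcard5 (fun x hx => hnofix x hx.1) (by
        intro l hl
        ext m
        rw [Module.End.one_apply]
        apply hadd
        apply hsep
        intro i
        have h2 := hBinv l m (e i.castSucc)
        rw [hl _ (e i.castSucc).2] at h2
        rw [map_add, LinearMap.add_apply, h2, hz2])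
      refine ⟨h1.2.2, Or.inr ⟨hM16, ?_⟩⟩
      rw [h1.2.1, h5]

end mod

end Cfsg.Agent.H979.TwoLenQ5
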